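import Mathlib
import Cfsg.Prelude.Def_HallClasses
import Cfsg.Agent.Lib.Helper46.ClassSize

set_option autoImplicit false

namespace Cfsg.Agent.Lib.Helper46.HallUniv

open Cfsg Subgroup
open scoped Pointwise

universe u

variable {G : Type u} [Group G]

theorem map_conj_one (H : Subgroup G) : H.map (MulAut.conj (1 : G)).toMonoidHom = H := by
  ext x
  simp

/-- all primes in `π`: the whole group is a Hall subgroup -/
theorem isEPi_of_all {π : Set ℕ} (h : ∀ p : ℕ, p.Prime → p ∈ π) : IsEPiGroup π G := by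
  refine ⟨⊤, fun p hp _ => h p hp, fun p hp _ hdvd => ?_⟩
  rw [Subgroup.index_top] at hdvd
  exact hp.one_lt.ne' (Nat.dvd_one.mp hdvd)

/-- at most one prime in `π`: a Sylow subgroup (or the trivial subgroup) is a Hall subgroup -/
theorem isEPi_of_one [Finite G] {π : Set ℕ}
    (h : ∀ p q : ℕ, p.Prime → q.Prime → p ∈ π → q ∈ π → p = q) : IsEPiGroup π G := by
  by_cases hex : ∃ p : ℕ, p.Prime ∧ p ∈ π
  · obtain ⟨p, hp, hpπ⟩ := hex
    have : Fact p.Prime := ⟨hp⟩
    obtain ⟨P⟩ : Nonempty (Sylow p G) := inferInstance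
    refine ⟨(P : Subgroup G), fun r hr hdvd => ?_, fun r hr hrπ => ?_⟩
    · obtain ⟨n, hn⟩ := IsPGroup.iff_card.mp P.isPGroup'
      rw [hn] at hdvd
      have : r = p := (Nat.prime_dvd_prime_iff_eq hr hp).mp (hr.dvd_of_dvd_pow hdvd)
      rw [this]; exact hpπ
    · have : r = p := h r p hr hp hrπ hpπ
      rw [this]
      exact P.not_dvd_index
  · refine ⟨⊥, fun r hr hdvd => ?_, fun r hr hrπ => (hex ⟨r, hr, hrπ⟩).elim⟩
    rw [Subgroup.card_bot] at hdvd
    exact absurd (Nat.dvd_one.mp hdvd) hr.one_lt.ne'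

theorem isDPi_of_all {π : Set ℕ} (h : ∀ p : ℕ, p.Prime → p ∈ π) : IsDPiGroup π G := by
  intro H K hH hK
  have htop : IsPiSubgroup π (⊤ : Subgroup G) := fun p hp _ => h p hp
  have hH' : H = ⊤ := top_le_iff.mp (hH.2 htop le_top)
  have hK' : K = ⊤ := top_le_iff.mp (hK.2 htop le_top)
  refine ⟨1, ?_⟩
  rw [map_conj_one, hH', hK']

theorem smul_eq_map_conj (g : G) (H : Subgroup G) :
    MulAut.conj g • H = H.map (MulAut.conj g).toMonoidHom := rfl

theorem isDPi_of_one [Finite G] {π : Set ℕ}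
    (h : ∀ p q : ℕ, p.Prime → q.Prime → p ∈ π → q ∈ π → p = q) : IsDPiGroup π G := by
  by_cases hex : ∃ p : ℕ, p.Prime ∧ p ∈ π
  · obtain ⟨p, hp, hpπ⟩ := hex
    have : Fact p.Prime := ⟨hp⟩
    have key : ∀ H : Subgroup G, Maximal (IsPiSubgroup π) H →
        ∃ P : Sylow p G, (P : Subgroup G) = H := by
      intro H hH
      have hpg : IsPGroup p H := by
        have h1 : Nat.card H = p ^ (Nat.card H).primeFactorsList.length :=
          Nat.eq_prime_pow_of_unique_prime_dvd Nat.card_pos.ne'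
            (fun {d} hd hdvd => h d p hd hp (hH.1 d hd hdvd) hpπ)
        exact IsPGroup.of_card h1
      refine ⟨⟨H, hpg, ?_⟩, rfl⟩
      intro Q hQ hHQ
      have hQπ : IsPiSubgroup π Q := by
        intro r hr hdvd
        obtain ⟨n, hn⟩ := IsPGroup.iff_card.mp hQ
        rw [hn] at hdvd
        have : r = p := (Nat.prime_dvd_prime_iff_eq hr hp).mp (hr.dvd_of_dvd_pow hdvd)
        rw [this]; exact hpπ
      exact le_antisymm (hH.2 hQπ hHQ) hHQ
    intro H K hH hK
    obtain ⟨P, rfl⟩ := key H hH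
    obtain ⟨Q, rfl⟩ := key K hK
    obtain ⟨g, hg⟩ := MulAction.exists_smul_eq G P Q
    refine ⟨g, ?_⟩
    rw [← hg, Sylow.coe_subgroup_smul, smul_eq_map_conj]
  · have key : ∀ H : Subgroup G, Maximal (IsPiSubgroup π) H → H = ⊥ := by
      intro H hH
      have h1 : Nat.card H = 1 := by
        rw [Nat.eq_one_iff_not_exists_prime_dvd]
        intro r hr hdvd
        exact hex ⟨r, hr, hH.1 r hr hdvd⟩
      exact Subgroup.eq_bot_of_card_eq H h1
    intro H K hH hK
    refine ⟨1, ?_⟩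
    rw [map_conj_one, key H hH, key K hK]

/-- In a finite group, `D_π` implies `E_π`. -/
theorem isEPi_of_isDPi [Finite G] {π : Set ℕ} (h : IsDPiGroup π G) : IsEPiGroup π G := by
  have hbot : IsPiSubgroup π (⊥ : Subgroup G) := by
    intro r hr hdvd
    rw [Subgroup.card_bot] at hdvd
    exact absurd (Nat.dvd_one.mp hdvd) hr.one_lt.ne'
  obtain ⟨M, -, hM⟩ := (Set.toFinite {K : Subgroup G | IsPiSubgroup π K}).exists_le_maximal
    (a := ⊥) hbot
  have hM' : Maximal (IsPiSubgroup π) M := hM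
  refine ⟨M, hM'.1, fun p hp hpπ hdvd => ?_⟩
  have : Fact p.Prime := ⟨hp⟩
  obtain ⟨P⟩ : Nonempty (Sylow p G) := inferInstance
  have hPπ : IsPiSubgroup π (P : Subgroup G) := by
    intro r hr hdvd
    obtain ⟨n, hn⟩ := IsPGroup.iff_card.mp P.isPGroup'
    rw [hn] at hdvd
    have : r = p := (Nat.prime_dvd_prime_iff_eq hr hp).mp (hr.dvd_of_dvd_pow hdvd)
    rw [this]; exact hpπ
  obtain ⟨N, hPN, hN⟩ := (Set.toFinite {K : Subgroup G | IsPiSubgroup π K}).exists_le_maximal
    (a := (P : Subgroup G)) hPπ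
  have hN' : Maximal (IsPiSubgroup π) N := hN
  obtain ⟨g, hg⟩ := h M N hM' hN'
  have hidx : N.index = M.index := by
    rw [hg]
    exact Subgroup.index_map_equiv M (MulAut.conj g)
  have h1 : N.index ∣ (P : Subgroup G).index := Subgroup.index_dvd_of_le hPN
  rw [← hidx] at hdvd
  exact P.not_dvd_index (hdvd.trans h1)


/-- In a Hall `π`-subgroup, every `p`-element (`p ∈ π`) has a conjugate. -/
theorem exists_conj_mem_of_hall [Finite G] {π : Set ℕ} {H : Subgroup G} (hH : IsPiHall π H)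
    {p : ℕ} (hp : p.Prime) (hpπ : p ∈ π) (x : G) {k : ℕ} (hx : x ^ p ^ k = 1) :
    ∃ g : G, g * x * g⁻¹ ∈ H := by
  have : Fact p.Prime := ⟨hp⟩
  obtain ⟨S, hS⟩ := ClassSize.exists_sylow_le_of_not_dvd_index H (hH.2 p hp hpπ)
  have hz : IsPGroup p (Subgroup.zpowers x) := by
    rintro ⟨y, hy⟩
    obtain ⟨i, rfl⟩ := Subgroup.mem_zpowers_iff.mp hy
    refine ⟨k, ?_⟩
    apply Subtype.ext
    simp only [SubmonoidClass.mk_pow, OneMemClass.coe_one]
    rw [← zpow_natCast, ← zpow_mul, mul_comm, zpow_mul, zpow_natCast, hx, one_zpow]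
  obtain ⟨Q, hQ⟩ := hz.exists_le_sylow
  obtain ⟨g, hg⟩ := MulAction.exists_smul_eq G Q S
  refine ⟨g, hS ?_⟩
  rw [← hg, Sylow.coe_subgroup_smul]
  exact Subgroup.smul_mem_pointwise_smul x (MulAut.conj g) (Q : Subgroup G)
    (hQ (Subgroup.mem_zpowers x))

/-- A Hall `π`-subgroup of the symmetric group of prime degree `q ∈ π` is primitive. -/
theorem hall_perm_preprimitive {α : Type u} [Fintype α] [DecidableEq α] {π : Set ℕ}
    {H : Subgroup (Equiv.Perm α)} (hH : IsPiHall π H) (hq : (Fintype.card α).Prime)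
    (hqπ : Fintype.card α ∈ π) : MulAction.IsPreprimitive H α := by
  have : Fact (Fintype.card α).Prime := ⟨hq⟩
  have h1 : Fintype.card α ∣ Nat.card H := by
    have h2 : Fintype.card α ∣ Nat.card (Equiv.Perm α) := by
      rw [Nat.card_perm, Nat.card_eq_fintype_card]
      exact Nat.dvd_factorial hq.pos le_rfl
    rw [← H.card_mul_index] at h2
    exact (hq.dvd_mul.mp h2).resolve_right (hH.2 _ hq hqπ)
  obtain ⟨σ, hσ⟩ := exists_prime_orderOf_dvd_card' (Fintype.card α) h1
  have hσ' : orderOf (σ : Equiv.Perm α) = Fintype.card α := by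
    rw [Subgroup.orderOf_coe]; exact hσ
  have hcyc : (σ : Equiv.Perm α).IsCycle := Equiv.Perm.isCycle_of_prime_order'' hq hσ'
  have hsupp : (σ : Equiv.Perm α).support = Finset.univ := by
    apply Finset.eq_univ_of_card
    rw [← hcyc.orderOf, hσ']
  have htrans : MulAction.IsPretransitive H α := by
    constructor
    intro x y
    have hx : (σ : Equiv.Perm α) x ≠ x := by
      rw [← Equiv.Perm.mem_support, hsupp]; exact Finset.mem_univ x
    have hy : (σ : Equiv.Perm α) y ≠ y := by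
      rw [← Equiv.Perm.mem_support, hsupp]; exact Finset.mem_univ y
    obtain ⟨i, hi⟩ := hcyc.sameCycle hx hy
    exact ⟨σ ^ i, by rw [Subgroup.smul_def, Subgroup.coe_zpow]; exact hi⟩
  exact MulAction.IsPreprimitive.of_prime_card (by rw [Nat.card_eq_fintype_card]; exact hq)


/-- `2 ∈ π`, `3 ∉ π`, `q ∈ π` with `q ≥ 5`: `Sym(q)` has no Hall `π`-subgroup. -/
theorem caseB {π : Set ℕ} (h2 : 2 ∈ π) (h3 : 3 ∉ π) {q : ℕ} (hq : q.Prime) (hqπ : q ∈ π)
    (hq5 : 5 ≤ q) : ¬ IsEPiGroup π (Equiv.Perm (Fin q)) := by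
  rintro ⟨H, hH⟩
  have hcard : Fintype.card (Fin q) = q := Fintype.card_fin q
  have hprim : MulAction.IsPreprimitive H (Fin q) :=
    hall_perm_preprimitive hH (by rw [hcard]; exact hq) (by rw [hcard]; exact hqπ)
  have h01 : (⟨0, by omega⟩ : Fin q) ≠ ⟨1, by omega⟩ := by simp [Fin.ext_iff]
  obtain ⟨g, hg⟩ := exists_conj_mem_of_hall hH Nat.prime_two h2
    (Equiv.swap (⟨0, by omega⟩ : Fin q) ⟨1, by omega⟩) (k := 1) (by
      rw [pow_one, pow_two, Equiv.swap_mul_self])
  have hsw : Equiv.Perm.IsSwap (g * Equiv.swap (⟨0, by omega⟩ : Fin q) ⟨1, by omega⟩ * g⁻¹) :=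
    ⟨g ⟨0, by omega⟩, g ⟨1, by omega⟩, g.injective.ne h01,
      (Equiv.swap_apply_apply g _ _).symm⟩
  have htop : H = ⊤ :=
    Equiv.Perm.subgroup_eq_top_of_isPreprimitive_of_isSwap_mem hprim _ hsw hg
  have h3dvd : 3 ∣ Nat.card H := by
    rw [htop, Subgroup.card_top, Nat.card_perm, Nat.card_eq_fintype_card, hcard]
    exact Nat.dvd_factorial (by norm_num) (by omega)
  exact h3 (hH.1 3 Nat.prime_three h3dvd)

/-- `2 ∉ π`, `p < q` primes of `π`: `Sym(q)` has no Hall `π`-subgroup. -/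
theorem caseC {π : Set ℕ} (h2 : 2 ∉ π) {p q : ℕ} (hp : p.Prime) (hq : q.Prime) (hpπ : p ∈ π)
    (hqπ : q ∈ π) (hpq : p < q) : ¬ IsEPiGroup π (Equiv.Perm (Fin q)) := by
  rintro ⟨H, hH⟩
  have hcard : Fintype.card (Fin q) = q := Fintype.card_fin q
  have hp2 := hp.two_le
  have hprim : MulAction.IsPreprimitive H (Fin q) :=
    hall_perm_preprimitive hH (by rw [hcard]; exact hq) (by rw [hcard]; exact hqπ)
  obtain ⟨c₀, hc₀⟩ := (Equiv.Perm.exists_with_cycleType_iff (α := Fin q) (m := {p})).mpr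
    ⟨by rw [Multiset.sum_singleton, hcard]; exact hpq.le, by
      intro a ha
      rw [Multiset.mem_singleton] at ha
      rw [ha]; exact hp2⟩
  have hc₀cyc : c₀.IsCycle := by
    rw [← Equiv.Perm.card_cycleType_eq_one, hc₀, Multiset.card_singleton]
  have hc₀supp : c₀.support.card = p := by
    rw [← Equiv.Perm.sum_cycleType, hc₀, Multiset.sum_singleton]
  have hc₀ord : c₀ ^ p ^ 1 = 1 := by
    rw [pow_one, ← hc₀supp, ← hc₀cyc.orderOf]; exact pow_orderOf_eq_one c₀
  obtain ⟨g, hg⟩ := exists_conj_mem_of_hall hH hp hpπ c₀ (k := 1) hc₀ord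
  have hccyc : (g * c₀ * g⁻¹).IsCycle := hc₀cyc.conj
  have hcsupp : (g * c₀ * g⁻¹).support.card = p := by
    rw [Equiv.Perm.card_support_conj]; exact hc₀supp
  have htr := Equiv.Perm.isPretransitive_of_isCycle_mem hccyc hg
  have h2t : MulAction.IsMultiplyPretransitive H (Fin q) 2 := by
    refine hprim.is_two_pretransitive (s := ((g * c₀ * g⁻¹).support : Set (Fin q))ᶜ)
      (n := q - p - 1) ?_ ?_ htr
    · rw [Set.ncard_compl, Set.ncard_coe_finset, hcsupp, Nat.card_eq_fintype_card, hcard]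
      omega
    · rw [Nat.card_eq_fintype_card, hcard]; omega
  rw [MulAction.is_two_pretransitive_iff] at h2t
  have h01 : (⟨0, by omega⟩ : Fin q) ≠ ⟨1, by omega⟩ := by simp [Fin.ext_iff]
  obtain ⟨t, ht0, ht1⟩ := h2t h01 h01.symm
  have heven : 2 ∣ orderOf t := by
    by_contra hodd
    obtain ⟨k, hk⟩ : Odd (orderOf t) := Nat.not_even_iff_odd.mp (fun h => hodd h.two_dvd)
    have h1 : t ^ (2 * k + 1) = 1 := by rw [← hk]; exact pow_orderOf_eq_one t
    have h2' : ∀ j : ℕ, (t ^ (2 * j)) • (⟨0, by omega⟩ : Fin q) = ⟨0, by omega⟩ := by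
      intro j
      induction j with
      | zero => simp
      | succ j ih =>
        rw [show 2 * (j + 1) = 2 * j + 1 + 1 by ring, pow_succ, pow_succ, mul_assoc, mul_smul,
          mul_smul, ht0, ht1, ih]
    have h3 : (t ^ (2 * k + 1)) • (⟨0, by omega⟩ : Fin q) = ⟨1, by omega⟩ := by
      rw [pow_succ', mul_smul, h2' k, ht0]
    rw [h1, one_smul] at h3
    exact h01 h3
  have h2dvd : 2 ∣ Nat.card H := heven.trans (orderOf_dvd_natCard t)
  exact h2 (hH.1 2 Nat.prime_two h2dvd)


theorem sq_not_dvd_factorial_succ {r : ℕ} (hr : r.Prime) : ¬ r ^ 2 ∣ (r + 1).factorial := by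
  intro h
  rw [Nat.factorial_succ] at h
  have hcop : Nat.Coprime (r ^ 2) (r + 1) := by
    apply Nat.Coprime.pow_left
    rw [Nat.coprime_self_add_right]
    exact Nat.coprime_one_right r
  have h1 : r ^ 2 ∣ r.factorial := hcop.dvd_of_dvd_mul_left h
  rw [← Nat.mul_factorial_pred hr.pos.ne', pow_two] at h1
  have h2 : r ∣ (r - 1).factorial := Nat.dvd_of_mul_dvd_mul_left hr.pos h1
  have h3 := (hr.dvd_factorial).mp h2
  have := hr.pos
  omega

/-- `r ≥ 5` the least prime outside `π`: `Alt(r+1)` has no Hall `π`-subgroup. -/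
theorem caseA {π : Set ℕ} {r : ℕ} (hr : r.Prime) (hr5 : 5 ≤ r) (hrπ : r ∉ π)
    (hmin : ∀ s : ℕ, s.Prime → s < r → s ∈ π) :
    ¬ IsEPiGroup π (alternatingGroup (Fin (r + 1))) := by
  rintro ⟨H, hH⟩
  have : Nontrivial (Fin (r + 1)) := Fin.nontrivial_iff_two_le.mpr (by omega)
  have hcardA : 2 * Nat.card (alternatingGroup (Fin (r + 1))) = (r + 1).factorial := by
    rw [two_mul_nat_card_alternatingGroup, Nat.card_perm, Nat.card_eq_fintype_card,
      Fintype.card_fin]
  have hsimple : IsSimpleGroup (alternatingGroup (Fin (r + 1))) :=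
    alternatingGroup.isSimpleGroup (by rw [Nat.card_eq_fintype_card, Fintype.card_fin]; omega)
  have hidx_dvd : H.index ∣ (r + 1).factorial := by
    rw [← hcardA]; exact (H.index_dvd_card).trans (Dvd.intro_left 2 rfl)
  have hprime_idx : ∀ s : ℕ, s.Prime → s ∣ H.index → s = r := by
    intro s hs hdvd
    have hsπ : s ∉ π := fun h => hH.2 s hs h hdvd
    have h1 : r ≤ s := by
      by_contra hlt
      exact hsπ (hmin s hs (by omega))
    have h2 : s ≤ r + 1 := (hs.dvd_factorial).mp (hdvd.trans hidx_dvd)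
    have h3 : s ≠ r + 1 := by
      intro h
      have hodd : r % 2 = 1 := (hr.eq_two_or_odd).resolve_left (by omega)
      have h2s : 2 ∣ s := by omega
      have := (Nat.prime_dvd_prime_iff_eq Nat.prime_two hs).mp h2s
      omega
    omega
  have hidx : H.index = r ^ H.index.primeFactorsList.length :=
    Nat.eq_prime_pow_of_unique_prime_dvd (Subgroup.index_ne_zero_of_finite)
      (fun {d} hd hdvd => hprime_idx d hd hdvd)
  have hr_dvd : r ∣ Nat.card (alternatingGroup (Fin (r + 1))) := by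
    have h1 : r ∣ 2 * Nat.card (alternatingGroup (Fin (r + 1))) := by
      rw [hcardA]; exact Nat.dvd_factorial hr.pos (by omega)
    refine (hr.dvd_mul.mp h1).resolve_left ?_
    intro h
    have := Nat.le_of_dvd (by norm_num) h
    omega
  have hne_top : H ≠ ⊤ := by
    intro h
    have h1 : r ∣ Nat.card H := by rw [h, Subgroup.card_top]; exact hr_dvd
    exact hrπ (hH.1 r hr h1)
  have hidx_le : H.index ≤ r := by
    have hk : H.index.primeFactorsList.length ≤ 1 := by
      by_contra hk2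
      have h1 : r ^ 2 ∣ (r + 1).factorial := by
        refine (pow_dvd_pow r (show 2 ≤ H.index.primeFactorsList.length by omega)).trans ?_
        rw [← hidx]; exact hidx_dvd
      exact sq_not_dvd_factorial_succ hr h1
    rw [hidx]
    calc r ^ H.index.primeFactorsList.length ≤ r ^ 1 := Nat.pow_le_pow_right hr.pos hk
      _ = r := pow_one r
  have hcore : H.normalCore = ⊥ := by
    rcases hsimple.eq_bot_or_eq_top_of_normal H.normalCore (Subgroup.normalCore_normal H) with
      h | h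
    · exact h
    · exact absurd (top_le_iff.mp (h ▸ Subgroup.normalCore_le H)) hne_top
  have hinj : Function.Injective
      (MulAction.toPermHom (alternatingGroup (Fin (r + 1))) (alternatingGroup (Fin (r + 1)) ⧸ H)) := by
    rw [← MonoidHom.ker_eq_bot_iff, ← Subgroup.normalCore_eq_ker, hcore]
  have hle := Nat.card_le_card_of_injective _ hinj
  rw [Nat.card_perm] at hle
  have h1 : Nat.card (alternatingGroup (Fin (r + 1)) ⧸ H) ≤ r := hidx_le
  have h2 : (Nat.card (alternatingGroup (Fin (r + 1)) ⧸ H)).factorial ≤ r.factorial :=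
    Nat.factorial_le h1
  have h3 : (r + 1).factorial = (r + 1) * r.factorial := Nat.factorial_succ r
  have h4 : 0 < r.factorial := Nat.factorial_pos r
  nlinarith

/-- A set of primes with two distinct primes that misses a prime: some finite group has
no Hall `π`-subgroup. -/
theorem exists_not_isEPi {π : Set ℕ} {p q r : ℕ} (hp : p.Prime) (hq : q.Prime) (hpπ : p ∈ π)
    (hqπ : q ∈ π) (hpq : p ≠ q) (hr : r.Prime) (hrπ : r ∉ π) :
    ∃ (G : Type) (_ : Group G) (_ : Finite G), ¬ IsEPiGroup π G := by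
  classical
  by_cases h2 : 2 ∈ π
  · by_cases h3 : 3 ∈ π
    · have hex : ∃ s : ℕ, s.Prime ∧ s ∉ π := ⟨r, hr, hrπ⟩
      obtain ⟨hr₀, hr₀π⟩ := Nat.find_spec hex
      have hmin : ∀ s : ℕ, s.Prime → s < Nat.find hex → s ∈ π := fun s hs hlt => by
        by_contra h
        exact Nat.find_min hex hlt ⟨hs, h⟩
      have h5 : 5 ≤ Nat.find hex := by
        have := hr₀.two_le
        by_contra hlt
        have h' : Nat.find hex = 2 ∨ Nat.find hex = 3 ∨ Nat.find hex = 4 := by omega
        rcases h' with h | h | h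
        · exact hr₀π (h ▸ h2)
        · exact hr₀π (h ▸ h3)
        · rw [h] at hr₀; exact absurd hr₀ (by norm_num)
      exact ⟨alternatingGroup (Fin (Nat.find hex + 1)), inferInstance, inferInstance,
        caseA hr₀ h5 hr₀π hmin⟩
    · obtain ⟨q', hq', hq'π, hq'2⟩ : ∃ q' : ℕ, q'.Prime ∧ q' ∈ π ∧ q' ≠ 2 := by
        by_cases h : p = 2
        · exact ⟨q, hq, hqπ, fun h' => hpq (h.trans h'.symm)⟩
        · exact ⟨p, hp, hpπ, h⟩
      have h5 : 5 ≤ q' := by
        have := hq'.two_le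
        by_contra hlt
        have h' : q' = 3 ∨ q' = 4 := by omega
        rcases h' with h | h
        · exact h3 (h ▸ hq'π)
        · rw [h] at hq'; exact absurd hq' (by norm_num)
      exact ⟨Equiv.Perm (Fin q'), inferInstance, inferInstance, caseB h2 h3 hq' hq'π h5⟩
  · rcases lt_or_gt_of_ne hpq with h | h
    · exact ⟨Equiv.Perm (Fin q), inferInstance, inferInstance, caseC h2 hp hq hpπ hqπ h⟩
    · exact ⟨Equiv.Perm (Fin p), inferInstance, inferInstance, caseC h2 hq hp hqπ hpπ h⟩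

end Cfsg.Agent.Lib.Helper46.HallUniv



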