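import Mathlib
import Cfsg.Prelude.Def_Transfer
import Cfsg.Agent.Lib.Helper46.ClassSize

/-!
# S4149: primes dividing class sizes, groups that are rarely `p`-nilpotent

Proof of helper9: for a prime `p` without normal `p`-complement at most half of the elements have
class size prime to `p` (Burnside's transfer theorem); then double counting.
-/

set_option autoImplicit false

namespace Cfsg.Agent.Lib.Helper46.S4149Core

open Subgroup Cfsg.Agent.Lib.Helper46.ClassSize

universe u

/-- Without a normal `p`-complement, at most half of the elements have class size prime to `p`. -/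
theorem two_mul_card_good_le {G : Type u} [Group G] [Finite G] {p : ℕ} [Fact p.Prime]
    (hno : ¬ Cfsg.HasNormalPComplement p G) :
    2 * Nat.card (goodSet G p) ≤ Nat.card G := by
  classical
  obtain ⟨P⟩ : Nonempty (Sylow p G) := inferInstance
  set C := centralizer ((P : Subgroup G) : Set G) with hCdef
  set N := normalizer ((P : Subgroup G) : Set G) with hNdef
  have hCN : C ≤ N := Subgroup.centralizer_le_normalizer _
  have hNC : ¬ N ≤ C := by
    intro hle
    apply hno
    exact ⟨P, (MonoidHom.transferSylow P hle).ker, inferInstance,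
      MonoidHom.ker_transferSylow_isComplement' P hle⟩
  let f : (Σ S : Sylow p G, centralizer ((S : Subgroup G) : Set G)) → goodSet G p :=
    fun t => ⟨t.2.1, (mem_goodSet_iff _).mpr ⟨t.1, t.2.2⟩⟩
  have hsurj : Function.Surjective f := by
    rintro ⟨x, hx⟩
    obtain ⟨S, hS⟩ := (mem_goodSet_iff x).mp hx
    exact ⟨⟨S, x, hS⟩, rfl⟩
  have hle : Nat.card (goodSet G p) ≤
      Nat.card (Σ S : Sylow p G, centralizer ((S : Subgroup G) : Set G)) :=
    Nat.card_le_card_of_surjective f hsurj
  have hsig : Nat.card (Σ S : Sylow p G, centralizer ((S : Subgroup G) : Set G)) =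
      Nat.card (Sylow p G) * Nat.card (centralizer ((P : Subgroup G) : Set G)) := by
    have := Fintype.ofFinite (Sylow p G)
    rw [Nat.card_sigma]
    have : ∀ S : Sylow p G, Nat.card (centralizer ((S : Subgroup G) : Set G)) =
        Nat.card (centralizer ((P : Subgroup G) : Set G)) := by
      intro S
      obtain ⟨g, hg⟩ := MulAction.exists_smul_eq G P S
      rw [← hg]
      exact card_centralizer_sylow_smul P g
    rw [Finset.sum_congr rfl (fun S _ => this S), Finset.sum_const, Finset.card_univ,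
      smul_eq_mul, ← Nat.card_eq_fintype_card]
  rw [hsig, Sylow.card_eq_index_normalizer P] at hle
  have h1 := card_mul_relIndex_of_le hCN
  have h2 : 2 ≤ C.relIndex N := by
    have hne1 : C.relIndex N ≠ 1 := fun h => hNC (Subgroup.relIndex_eq_one.mp h)
    have hne0 : C.relIndex N ≠ 0 := by
      intro h0
      rw [h0, mul_zero] at h1
      exact (Nat.card_pos (α := N)).ne' h1.symm
    omega
  have h4 := N.card_mul_index
  calc 2 * Nat.card (goodSet G p) ≤ 2 * (N.index * Nat.card C) := Nat.mul_le_mul_left 2 hle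
    _ = N.index * (Nat.card C * 2) := by ring
    _ ≤ N.index * (Nat.card C * C.relIndex N) := by gcongr
    _ = Nat.card N * N.index := by rw [h1]; ring
    _ = Nat.card G := h4

/-- The number of elements with class size prime to `p`, as a finset cardinality. -/
theorem card_goodSet_eq {G : Type u} [Group G] [Fintype G] (p : ℕ)
    [DecidablePred fun g : G => ¬ p ∣ (Subgroup.centralizer ({g} : Set G)).index] :
    Nat.card (goodSet G p) =
      (Finset.univ.filter (fun g : G => ¬ p ∣ (Subgroup.centralizer ({g} : Set G)).index)).card := by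
  have h : goodSet G p =
      ↑(Finset.univ.filter (fun g : G => ¬ p ∣ (Subgroup.centralizer ({g} : Set G)).index)) := by
    ext g
    simp [goodSet]
  rw [h, Nat.card_coe_set_eq, Set.ncard_coe_finset]

/-- **S4149**: if `G` has a normal `p`-complement for at most one prime divisor `p` of its order
and every class size has at most `σ` prime divisors, then at most `2σ` primes divide class sizes. -/
theorem core {G : Type u} [Group G] [Finite G] (σ : ℕ)
    (hσ : ∀ x : G, ((Subgroup.centralizer ({x} : Set G)).index).primeFactors.card ≤ σ)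
    (hnil : ∀ p q : ℕ, p.Prime → q.Prime → p ∣ Nat.card G → q ∣ Nat.card G →
      Cfsg.HasNormalPComplement p G → Cfsg.HasNormalPComplement q G → p = q) :
    Nat.card {p : ℕ | p.Prime ∧ ∃ x : G, p ∣ (Subgroup.centralizer ({x} : Set G)).index}
      ≤ 2 * σ := by
  classical
  have : Fintype G := Fintype.ofFinite G
  obtain ⟨nn, hnn⟩ : ∃ nn : G → ℕ, nn = fun x => (Subgroup.centralizer ({x} : Set G)).index :=
    ⟨_, rfl⟩
  have hnn' : ∀ x, (Subgroup.centralizer ({x} : Set G)).index = nn x := fun x => by rw [hnn]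
  have hnn_dvd : ∀ x, nn x ∣ Nat.card G := fun x => by rw [hnn]; exact Subgroup.index_dvd_card _
  have hnn_ne : ∀ x, nn x ≠ 0 := fun x => by rw [hnn]; exact Subgroup.index_ne_zero_of_finite
  have hG0 : Nat.card G ≠ 0 := Nat.card_pos.ne'
  have hcardG : Fintype.card G = Nat.card G := Nat.card_eq_fintype_card.symm
  simp only [hnn'] at hσ ⊢
  obtain ⟨ρ, hρ⟩ : ∃ ρ : Finset ℕ,
      ρ = (Nat.card G).primeFactors.filter (fun p => ∃ x, p ∣ nn x) := ⟨_, rfl⟩
  have hρmem : ∀ p, p ∈ ρ ↔ p.Prime ∧ ∃ x, p ∣ nn x := by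
    intro p
    rw [hρ, Finset.mem_filter, Nat.mem_primeFactors]
    constructor
    · rintro ⟨⟨hp, -, -⟩, x, hx⟩
      exact ⟨hp, x, hx⟩
    · rintro ⟨hp, x, hx⟩
      exact ⟨⟨hp, hx.trans (hnn_dvd x), hG0⟩, x, hx⟩
  have hset : {p : ℕ | p.Prime ∧ ∃ x : G, p ∣ nn x} = (ρ : Set ℕ) := by
    ext p
    rw [Set.mem_ofPred_eq, Finset.mem_coe, hρmem]
  rw [hset, Nat.card_coe_set_eq, Set.ncard_coe_finset]
  obtain ⟨a, ha⟩ : ∃ a : ℕ → ℕ,
      a = fun p => (Finset.univ.filter (fun g : G => ¬ p ∣ nn g)).card := ⟨_, rfl⟩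
  -- double counting
  have hdc : ∑ p ∈ ρ, a p = ∑ g : G, (ρ.filter (fun p => ¬ p ∣ nn g)).card := by
    rw [ha]
    simp only [Finset.card_filter]
    exact Finset.sum_comm
  have hlow : ρ.card * Nat.card G ≤ ∑ p ∈ ρ, a p + σ * Nat.card G := by
    rw [hdc]
    have hg : ∀ g : G, ρ.card ≤ (ρ.filter (fun p => ¬ p ∣ nn g)).card + σ := by
      intro g
      have h1 := Finset.card_filter_add_card_filter_not (s := ρ) (fun p => p ∣ nn g)
      have h2 : (ρ.filter (fun p => p ∣ nn g)).card ≤ (nn g).primeFactors.card := by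
        apply Finset.card_le_card
        intro p hp
        rw [Finset.mem_filter] at hp
        rw [Nat.mem_primeFactors]
        exact ⟨((hρmem p).mp hp.1).1, hp.2, hnn_ne g⟩
      have h3 := hσ g
      omega
    calc ρ.card * Nat.card G = ∑ _g : G, ρ.card := by
          rw [Finset.sum_const, Finset.card_univ, hcardG, smul_eq_mul, mul_comm]
      _ ≤ ∑ g : G, ((ρ.filter (fun p => ¬ p ∣ nn g)).card + σ) :=
          Finset.sum_le_sum (fun g _ => hg g)
      _ = ∑ g : G, (ρ.filter (fun p => ¬ p ∣ nn g)).card + σ * Nat.card G := by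
          rw [Finset.sum_add_distrib, Finset.sum_const, Finset.card_univ, hcardG, smul_eq_mul,
            mul_comm σ]
  -- upper bounds
  have hbad : ∀ p ∈ ρ, ¬ Cfsg.HasNormalPComplement p G → 2 * a p ≤ Nat.card G := by
    intro p hp hno
    haveI : Fact p.Prime := ⟨((hρmem p).mp hp).1⟩
    have h1 := two_mul_card_good_le (G := G) (p := p) hno
    rw [card_goodSet_eq] at h1
    simp only [hnn'] at h1
    rw [ha]
    exact h1
  have hgood : ∀ p ∈ ρ, a p + 1 ≤ Nat.card G := by
    intro p hp
    obtain ⟨x, hx⟩ := ((hρmem p).mp hp).2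
    rw [ha, ← hcardG, ← Finset.card_univ]
    exact Finset.card_lt_card (Finset.filter_ssubset.mpr ⟨x, Finset.mem_univ x, not_not.mpr hx⟩)
  have hsplit := Finset.card_filter_add_card_filter_not (s := ρ)
    (fun p => Cfsg.HasNormalPComplement p G)
  have hg1 : (ρ.filter (fun p => Cfsg.HasNormalPComplement p G)).card ≤ 1 := by
    rw [Finset.card_le_one]
    intro p hp q hq
    rw [Finset.mem_filter] at hp hq
    have hpp := (hρmem p).mp hp.1
    have hqq := (hρmem q).mp hq.1
    obtain ⟨x, hx⟩ := hpp.2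
    obtain ⟨y, hy⟩ := hqq.2
    exact hnil p q hpp.1 hqq.1 (hx.trans (hnn_dvd x)) (hy.trans (hnn_dvd y)) hp.2 hq.2
  have hsum := Finset.sum_filter_add_sum_filter_not ρ (fun p => Cfsg.HasNormalPComplement p G) a
  have hb : 2 * ∑ p ∈ ρ.filter (fun p => ¬ Cfsg.HasNormalPComplement p G), a p ≤
      (ρ.filter (fun p => ¬ Cfsg.HasNormalPComplement p G)).card * Nat.card G := by
    rw [Finset.mul_sum]
    calc ∑ p ∈ ρ.filter (fun p => ¬ Cfsg.HasNormalPComplement p G), 2 * a p
        ≤ ∑ _p ∈ ρ.filter (fun p => ¬ Cfsg.HasNormalPComplement p G), Nat.card G :=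
          Finset.sum_le_sum (fun p hp =>
            hbad p (Finset.mem_filter.mp hp).1 (Finset.mem_filter.mp hp).2)
      _ = _ := by rw [Finset.sum_const, smul_eq_mul]
  have hgd : ∑ p ∈ ρ.filter (fun p => Cfsg.HasNormalPComplement p G), a p +
      (ρ.filter (fun p => Cfsg.HasNormalPComplement p G)).card ≤
      (ρ.filter (fun p => Cfsg.HasNormalPComplement p G)).card * Nat.card G := by
    calc ∑ p ∈ ρ.filter (fun p => Cfsg.HasNormalPComplement p G), a p +
          (ρ.filter (fun p => Cfsg.HasNormalPComplement p G)).card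
        = ∑ p ∈ ρ.filter (fun p => Cfsg.HasNormalPComplement p G), (a p + 1) := by
          rw [Finset.sum_add_distrib, Finset.sum_const, smul_eq_mul, mul_one]
      _ ≤ ∑ _p ∈ ρ.filter (fun p => Cfsg.HasNormalPComplement p G), Nat.card G :=
          Finset.sum_le_sum (fun p hp => hgood p (Finset.mem_filter.mp hp).1)
      _ = _ := by rw [Finset.sum_const, smul_eq_mul]
  have hmul : (ρ.filter (fun p => Cfsg.HasNormalPComplement p G)).card * Nat.card G +
      (ρ.filter (fun p => ¬ Cfsg.HasNormalPComplement p G)).card * Nat.card G =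
      ρ.card * Nat.card G := by rw [← add_mul, hsplit]
  have hnpos : 0 < Nat.card G := Nat.card_pos
  by_contra hcon
  push Not at hcon
  have hk : (2 * σ + 1) * Nat.card G ≤ ρ.card * Nat.card G := Nat.mul_le_mul_right _ hcon
  have hk' : (2 * σ + 1) * Nat.card G = 2 * (σ * Nat.card G) + Nat.card G := by ring
  rw [hk'] at hk
  -- abstract the products
  obtain ⟨X, hX⟩ : ∃ X, X = ρ.card * Nat.card G := ⟨_, rfl⟩
  obtain ⟨Y, hY⟩ : ∃ Y, Y = (ρ.filter (fun p => Cfsg.HasNormalPComplement p G)).card * Nat.card G :=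
    ⟨_, rfl⟩
  obtain ⟨Z, hZ⟩ : ∃ Z,
      Z = (ρ.filter (fun p => ¬ Cfsg.HasNormalPComplement p G)).card * Nat.card G := ⟨_, rfl⟩
  obtain ⟨W, hW⟩ : ∃ W, W = σ * Nat.card G := ⟨_, rfl⟩
  rw [← hX, ← hW] at hlow hk
  rw [← hX, ← hY, ← hZ] at hmul
  rw [← hZ] at hb
  rw [← hY] at hgd
  rw [← hsum] at hlow
  rcases Nat.le_one_iff_eq_zero_or_eq_one.mp hg1 with h0 | h1
  · rw [h0, zero_mul] at hY
    rw [h0] at hgd
    omega
  · rw [h1, one_mul] at hY
    rw [h1] at hgd
    omega

end Cfsg.Agent.Lib.Helper46.S4149Core
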